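import Cfsg.Agent.H422.EB.B2
import Cfsg.Agent.H274.EB.U1

/-!
# TEAM EB: `PSp₄(2^a)`, `a ≥ 2`, `PSU₄(2^a)`, `PSU₅(2^a)`
-/

set_option autoImplicit false

namespace Cfsg.Agent.H422.EB

open Cfsg Cfsg.Agent.H694.EB Cfsg.Agent.H684.EB
open Cfsg.Agent.Omega.ML.Ex.Typ

universe u

theorem evenJ_PSp4 {S : Type u} [Group S] [Finite S] [IsSimpleGroup S] {F : Type} [Field F] [Fintype F] [CharP F 2]
    (hF : 3 ≤ Fintype.card F) (e : S ≃* PSp 2 F) : EvenJ S := by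
  haveI : Fact (Nat.Prime 2) := ⟨Nat.prime_two⟩
  refine evenJ_B2 ((typ_PSp (F := F) (p := 2) (m := 2) (by norm_num)).of_equiv e.symm) (H274.EB.dz_of_hasFilt ?_)
  exact KFacts.RgdFiltClass.hasFilt_of_PSp ⟨F, inferInstance, inferInstance, inferInstance, 2, le_rfl,
    fun _ => hF, ⟨e⟩⟩

theorem evenJ_PSU {S : Type u} [Group S] [Finite S] [IsSimpleGroup S] {F : Type} [Field F] [Fintype F] [CharP F 2]
    {q n : ℕ} (hF : Fintype.card F = q ^ 2) (hn : n = 4 ∨ n = 5) (e : S ≃* PSU n F q) : EvenJ S := by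
  haveI : Fact (Nat.Prime 2) := ⟨Nat.prime_two⟩
  have hn3 : 3 ≤ n := by omega
  obtain ⟨m, hm, h⟩ := typ_PSU (F := F) (p := 2) hF hn3
  have hm2 : m = 2 := by omega
  subst hm2
  refine evenJ_B2 (h.of_equiv e.symm) (H274.EB.dz_of_hasFilt ?_)
  exact KFacts.RgdFiltClass.hasFilt_of_PSU ⟨F, inferInstance, inferInstance, inferInstance, n, q, hF, hn3,
    by omega, ⟨e⟩⟩

end Cfsg.Agent.H422.EB
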